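import Cfsg.Agent.Lib.KnownSimple.TitsLab.TwoD
import Cfsg.Agent.Lib.KnownSimple.TwoTrans

/-!
# The Tits group has no doubly transitive action
-/

set_option autoImplicit false
set_option maxRecDepth 100000

namespace Cfsg.Agent.Lib.KnownSimple.TitsLab

open Cfsg.Agent.Lib.KnownSimple.Lab Cfsg.Agent.Lib.KnownSimple.LabMat Cfsg.Agent.Lib.KnownSimple.LabField
open Cfsg.Agent.Lib.KnownSimple.LabVec Cfsg.Agent.Lib.KnownSimple.LabChev Cfsg.Agent.Lib.KnownSimple.LabPack Cfsg.Lie Subgroup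
open Cfsg.Agent.Lib.KnownSimple.LabLevels Cfsg.Agent.Lib.KnownSimple Cfsg.Agent.Lib.KnownSimple.TwoTrans
open scoped Matrix Pointwise

namespace Rp

section main

open Cfsg.Agent.Lib.Chev

variable (R : Rep (ZMod 2) 2 add2 mul2)

theorem eqT (w1 w2 : List ℕ) (h1 : ∀ a ∈ w1, a < 4) (h2 : ∀ a ∈ w2, a < 4) (h : chkEq w1 w2 = true) :
    wval (lt R) w1 = wval (lt R) w2 := by
  apply Subtype.ext
  rw [wval_lt R w1 h1, wval_lt R w2 h2]
  exact heqW R w1 w2 (fun a ha => by have := h1 a ha; omega) (fun a ha => by have := h2 a ha; omega) h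

theorem walkT (w1 w2 : List ℕ) (h1 : ∀ a ∈ w1, a < 4) (h2 : ∀ a ∈ w2, a < 4) (e : wval (lt R) w1 = wval (lt R) w2)
    (i : ℕ) (hi : i < 1755) : walk V w1 i = walk V w2 i := by
  have e1 : wval (lT R) w1 = wval (lT R) w2 := by
    rw [← wval_lt R w1 h1, ← wval_lt R w2 h2, e]
  have h3 := hLetM R w1 (fun a ha => by have := h1 a ha; omega) i hi
  have h4 := hLetM R w2 (fun a ha => by have := h2 a ha; omega) i hi
  rw [e1] at h3
  exact hP R _ h3.1 _ h4.1 (h3.2.symm.trans h4.2)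

theorem neT (w : List ℕ) (h1 : ∀ a ∈ w, a < 4) (i : ℕ) (hi : i < 1755) (h : walk V w i ≠ i) : wval (lt R) w ≠ 1 := by
  intro e
  have e1 : wval (lt R) w = wval (lt R) [] := by rw [e, wval_nil]
  exact h (walkT R w [] h1 (by simp) e1 i hi)

set_option maxHeartbeats 2000000 in
/-- A subgroup given by lists. -/
theorem tlist (Wg WL : ℕ → List ℕ) (τ : ℕ → ℕ → ℕ) (pr gn : ℕ → ℕ) (Hc : ℕ → List ℕ) (ρw : List ℕ) (p0 m : ℕ) (hm : 0 < m)
    (hp0 : p0 < 1755) (h1 : ∀ a < 2, ∀ b ∈ Wg a, b < 4) (h2 : ∀ i < m, (∀ b ∈ WL i, b < 4) ∧ (∀ b ∈ Hc i, b < 4))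
    (h3 : ∀ b ∈ ρw, b < 4)
    (h4 : allI (fun x => Nat.blt (τ (x / m) (x % m)) m && chkEq (Wg (x / m) ++ WL (x % m)) (WL (τ (x / m) (x % m)))) 0 (2 * m) = true)
    (h5 : allI (fun i => Nat.blt (pr i) i && Nat.blt (gn i) 2 && Nat.beq (τ (gn i) (pr i)) i) 1 (m - 1) = true)
    (h6 : allI (fun i => chkEq (Hc i ++ ρw) (WL i ++ Hc i)) 1 (m - 1) = true)
    (h7 : ((List.range m).map fun i => walk V (WL i) p0).Nodup) (h8 : WL 0 = []) :
    ∃ Q : Subgroup Cfsg.Lie.TitsGroup, Nat.card Q = m ∧ ∀ r ∈ Q, r ≠ 1 → ∃ h, r = h * wval (lt R) ρw * h⁻¹ := by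
  have hτ : ∀ a < 2, ∀ i < m, τ a i < m ∧ wval (lt R) (Wg a) * wval (lt R) (WL i) = wval (lt R) (WL (τ a i)) := by
    intro a ha i hi
    have hx : a * m + i < 0 + 2 * m := by
      have h10 : (a + 1) * m ≤ 2 * m := Nat.mul_le_mul_right m ha
      rw [Nat.add_mul, Nat.one_mul] at h10
      omega
    have h9 := of_allI h4 (a * m + i) (Nat.zero_le _) hx
    have e1 : (a * m + i) / m = a := by
      rw [Nat.add_comm, Nat.add_mul_div_right _ _ hm, Nat.div_eq_of_lt hi, Nat.zero_add]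
    have e2 : (a * m + i) % m = i := by
      rw [Nat.add_comm, Nat.add_mul_mod_self_right, Nat.mod_eq_of_lt hi]
    rw [e1, e2] at h9
    simp only [Bool.and_eq_true, Nat.blt_eq] at h9
    refine ⟨h9.1, ?_⟩
    rw [← wval_append]
    refine eqT R _ _ ?_ (h2 _ h9.1).1 h9.2
    intro b hb
    rcases List.mem_append.mp hb with hb | hb
    · exact h1 a ha b hb
    · exact (h2 i hi).1 b hb
  have hinj : ∀ i < m, ∀ j < m, wval (lt R) (WL i) = wval (lt R) (WL j) → i = j := by
    intro i hi j hj e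
    have e1 := walkT R _ _ (h2 i hi).1 (h2 j hj).1 e p0 hp0
    exact List.inj_on_of_nodup_map h7 (List.mem_range.mpr hi) (List.mem_range.mpr hj) e1
  have htree : ∀ i, 0 < i → i < m → pr i < i ∧ gn i < 2 ∧ τ (gn i) (pr i) = i := by
    intro i h0 hi
    have h9 := of_allI h5 i h0 (by omega)
    simp only [Bool.and_eq_true, Nat.blt_eq, Nat.beq_eq] at h9
    exact ⟨h9.1.1, h9.1.2, h9.2⟩
  have h00 : (fun i => wval (lt R) (WL i)) 0 = (1 : Cfsg.Lie.TitsGroup) := by
    show wval (lt R) (WL 0) = 1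
    rw [h8, wval_nil]
  obtain ⟨hmem, hcard⟩ := list_subgroup (Y := Cfsg.Lie.TitsGroup) (fun i => wval (lt R) (WL i)) m 2 (fun a => wval (lt R) (Wg a)) τ pr gn hm
    h00 hτ hinj htree
  refine ⟨_, hcard, ?_⟩
  intro r hr hne
  obtain ⟨i, hi, rfl⟩ := hmem r hr
  have hi0 : 0 < i := by
    rcases Nat.eq_zero_or_pos i with rfl | h
    · exfalso
      exact hne h00
    · exact h
  have h9 := of_allI h6 i hi0 (by omega)
  have e := eqT R (Hc i ++ ρw) (WL i ++ Hc i) (by
    intro b hb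
    rcases List.mem_append.mp hb with hb | hb
    · exact (h2 i hi).2 b hb
    · exact h3 b hb) (by
    intro b hb
    rcases List.mem_append.mp hb with hb | hb
    · exact (h2 i hi).1 b hb
    · exact (h2 i hi).2 b hb) h9
  rw [wval_append, wval_append] at e
  exact ⟨wval (lt R) (Hc i), by rw [e, mul_inv_cancel_right]⟩

end main

end Rp

set_option maxHeartbeats 4000000 in
open Rp MulAction in
/-- The Tits group has no faithful doubly transitive action on a set with more than two points. -/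
theorem no_two_transitive {Ω : Type*} [Fintype Ω] [MulAction Cfsg.Lie.TitsGroup Ω] [FaithfulSMul Cfsg.Lie.TitsGroup Ω]
    (hΩ : 3 ≤ Fintype.card Ω) : ¬ MulAction.IsMultiplyPretransitive Cfsg.Lie.TitsGroup Ω 2 := by
  intro h2
  obtain ⟨R⟩ := exists_rep2 (F := ZMod 2) (ZMod.card 2)
  have hN := hcard R
  haveI : Finite Cfsg.Lie.TitsGroup := Nat.finite_of_card_ne_zero (by rw [hN]; norm_num)
  have hdvd := mul_pred_dvd h2 (by omega)
  rw [hN] at hdvd
  have hst : ∀ a : Ω, Nat.card (stabilizer Cfsg.Lie.TitsGroup a) * Fintype.card Ω = 17971200 := by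
    intro a
    rw [card_stab_mul h2 a, hN]
  obtain ⟨Q5, hQ5c, hQ5⟩ := tlist R WgE WLE tauE prE gnE HcE rhoE 0 25 (by norm_num) (by norm_num) c_l1E c_l2E c_l3E
    c_mulE c_treeE c_conjE c_ndE (by decide +kernel)
  obtain ⟨Q3, hQ3c, hQ3⟩ := tlist R WgR WLR tauR prR gnR HcR rhoR 0 27 (by norm_num) (by norm_num) c_l1R c_l2R c_l3R
    c_mulR c_treeR c_conjR c_ndR (by decide +kernel)
  obtain ⟨hx13, hy3, hyx, hpx, hpy, hpc⟩ := c_xy
  obtain ⟨hlx, hly⟩ := c_xyl
  set n := Fintype.card Ω with hn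
  have d3 := burn_dvd (Ω := Ω) Q3 _ hQ3
  rw [hQ3c, show (27 - 1 : ℕ) = 26 from rfl] at d3
  have hc1 : wval (lt R) rhoR ≠ 1 := neT R rhoR c_l3R 0 (by norm_num) hpc
  have hf3 := fix_lt (Ω := Ω) _ hc1
  have hn27 : 27 ≤ n := by omega
  have hcases : ∀ m < 4300, 27 ≤ m → m * (m - 1) ∣ 17971200 → m = 27 ∨ m = 40 ∨ m = 65 := by decide +kernel
  have hlt : n < 4300 := by
    by_contra h
    have h1 := Nat.le_of_dvd (by norm_num) hdvd
    have h3 : 4300 * 4299 ≤ n * (n - 1) := Nat.mul_le_mul (by omega) (by omega)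
    omega
  have d5 := burn_dvd (Ω := Ω) Q5 _ hQ5
  rw [hQ5c, show (25 - 1 : ℕ) = 24 from rfl] at d5
  have bnd : ∀ s, Nat.gcd 25 s = 5 → (∀ a : Ω, Nat.card (stabilizer Cfsg.Lie.TitsGroup a) = s) →
      n + 24 * Nat.card (fixedBy Ω (wval (lt R) rhoE)) ≤ 5 * n := by
    intro s hs hsa
    have b := burn_bound (Ω := Ω) Q5 _ hQ5 5 (by
      intro a
      have d1 : Nat.card ↥(Q5 ⊓ stabilizer Cfsg.Lie.TitsGroup a) ∣ 25 := hQ5c ▸ Subgroup.card_dvd_of_le inf_le_left
      have d2 : Nat.card ↥(Q5 ⊓ stabilizer Cfsg.Lie.TitsGroup a) ∣ s := (hsa a) ▸ Subgroup.card_dvd_of_le inf_le_right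
      have d3 := Nat.dvd_gcd d1 d2
      rw [hs] at d3
      exact Nat.le_of_dvd (by norm_num) d3)
    rw [hQ5c, show (25 - 1 : ℕ) = 24 from rfl] at b
    exact b
  rcases hcases n hlt hn27 hdvd with h | h | h
  · set x := wval (lt R) xw with hxd
    set y := wval (lt R) yw with hyd
    have hx : x ^ 13 = 1 := by
      have e := eqT R (powW xw 13) [] (powW_letters xw 13 4 hlx) (by simp) hx13
      rwa [wval_powW, wval_nil] at e
    have hy : y ^ 3 = 1 := by
      have e := eqT R (powW yw 3) [] (powW_letters yw 3 4 hly) (by simp) hy3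
      rwa [wval_powW, wval_nil] at e
    have hyxe : y * x = x ^ 3 * y := by
      have e := eqT R (yw ++ xw) (powW xw 3 ++ yw) (by
        intro b hb
        rcases List.mem_append.mp hb with hb | hb
        · exact hly b hb
        · exact hlx b hb) (by
        intro b hb
        rcases List.mem_append.mp hb with hb | hb
        · exact powW_letters xw 3 4 hlx b hb
        · exact hly b hb) hyx
      rwa [wval_append, wval_append, wval_powW] at e
    have hx1 : x ≠ 1 := neT R xw hlx 0 (by norm_num) hpx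
    have hy1 : y ≠ 1 := neT R yw hly 0 (by norm_num) hpy
    haveI : Fact (Nat.Prime 3) := ⟨by norm_num⟩
    haveI : Fact (Nat.Prime 13) := ⟨by norm_num⟩
    have ho : orderOf y = 3 := orderOf_eq_prime hy hy1
    have hfree : ∀ a : Ω, y • a ≠ a := by
      intro a ha
      have hm : y ∈ stabilizer Cfsg.Lie.TitsGroup a := ha
      have hd := Subgroup.orderOf_dvd_natCard _ hm
      rw [ho] at hd
      have e := hst a
      rw [h] at e
      omega
    have hinv : ∀ a ∈ fixedBy Ω x, y • a ∈ fixedBy Ω x := by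
      intro a ha
      have ha' : x • a = a := ha
      have e3 : (x ^ 3) • (y • a) = y • a := by
        rw [smul_smul, ← hyxe, mul_smul, ha']
      have e4 : ∀ k : ℕ, ((x ^ 3) ^ k) • (y • a) = y • a := by
        intro k
        induction k with
        | zero => simp
        | succ k ih => rw [pow_succ, mul_smul, e3, ih]
      have e5 : (x ^ 3) ^ 9 = x := by
        rw [← pow_mul]
        calc x ^ (3 * 9) = x * (x ^ 13) ^ 2 := by
              rw [← pow_mul, ← pow_succ']
          _ = x := by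
              rw [hx]
              simp
      have e6 := e4 9
      rw [e5] at e6
      exact e6
    have d3x := dvd_card_of_free y 3 1 (by simpa using hy) (fixedBy Ω x) hinv (fun a _ => hfree a)
    have hinv2 : ∀ a ∈ (fixedBy Ω x)ᶜ, x • a ∈ (fixedBy Ω x)ᶜ := by
      intro a ha e
      apply ha
      exact MulAction.injective x e
    have d13 := dvd_card_of_free x 13 1 (by simpa using hx) (fixedBy Ω x)ᶜ hinv2 (fun a ha => ha)
    have hs := card_fix_add_moved (Ω := Ω) x
    have hlt' := fix_lt (Ω := Ω) x hx1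
    omega
  · have b := bnd 449280 (by norm_num) (fun a => by
      have e := hst a
      rw [h] at e
      omega)
    omega
  · have b := bnd 276480 (by norm_num) (fun a => by
      have e := hst a
      rw [h] at e
      omega)
    omega

end Cfsg.Agent.Lib.KnownSimple.TitsLab
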